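import Cfsg.Agent.Lib.Core.Basic
import Mathlib.GroupTheory.Sylow
import Mathlib.GroupTheory.Perm.Cycle.Type

/-!
# Endomorphisms of order three with odd fixed points on a group of order prime to 3
-/

set_option autoImplicit false
set_option linter.unusedSectionVars false
set_option linter.unusedVariables false

namespace Cfsg.Agent.Lib.FPS3.Basic

open Subgroup

/-- A function of period three on a finite set of size prime to 3 has a fixed point. -/
theorem exists_fixed_of_cube {α : Type*} [Finite α] (f : α → α) (hf : ∀ x, f (f (f x)) = x)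
    (h : ¬ 3 ∣ Nat.card α) : ∃ x, f x = x := by
  classical
  haveI := Fintype.ofFinite α
  haveI : Fact (Nat.Prime 3) := ⟨Nat.prime_three⟩
  let F : Function.End α := f
  have h1 : F ^ (3 ^ 1) = 1 := by
    funext x
    exact hf x
  have h2 := Equiv.Perm.card_fixedPoints_modEq (f := F) (p := 3) (n := 1) h1
  by_contra hne
  push Not at hne
  have h3 : Fintype.card (Function.fixedPoints F) = 0 := by
    rw [Fintype.card_eq_zero_iff]
    exact ⟨fun x => hne x.1 x.2⟩
  rw [h3] at h2
  apply h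
  rw [Nat.card_eq_fintype_card]
  exact (Nat.modEq_zero_iff_dvd.mp h2)

variable {G : Type*} [Group G]

/-- The hypotheses on an endomorphism: period 3, group order prime to 3, odd order fixed points. -/
structure F3 (φ : G →* G) : Prop where
  cube : ∀ x, φ (φ (φ x)) = x
  no3 : ¬ 3 ∣ Nat.card G
  fix : ∀ x, φ x = x → ¬ 2 ∣ orderOf x

variable {φ : G →* G}

theorem F3.inj (h : F3 φ) : Function.Injective φ := fun x y e => by
  have := congrArg (fun z => φ (φ z)) e
  simpa only [h.cube] using this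

theorem F3.surj (h : F3 φ) : Function.Surjective φ := fun x => ⟨φ (φ x), h.cube x⟩

/-- A fixed element of 2-power order is trivial. -/
theorem F3.eq_one_of_fixed [Finite G] (h : F3 φ) {x : G} (hx : φ x = x) {k : ℕ}
    (hk : x ^ 2 ^ k = 1) : x = 1 := by
  have h1 : orderOf x ∣ 2 ^ k := orderOf_dvd_of_pow_eq_one hk
  obtain ⟨j, hj, hj2⟩ := (Nat.dvd_prime_pow Nat.prime_two).mp h1
  have h2 := h.fix x hx
  rcases Nat.eq_zero_or_pos j with rfl | hpos
  · rw [pow_zero] at hj2
    exact orderOf_eq_one_iff.mp hj2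
  · exact absurd (hj2 ▸ dvd_pow_self 2 hpos.ne') h2

/-- Restriction to an invariant subgroup. -/
def resHom (φ : G →* G) (H : Subgroup G) (hH : ∀ x ∈ H, φ x ∈ H) : H →* H :=
  (φ.comp H.subtype).codRestrict H (fun x => hH _ x.2)

@[simp] theorem resHom_coe (H : Subgroup G) (hH : ∀ x ∈ H, φ x ∈ H) (x : H) :
    ((resHom φ H hH x : H) : G) = φ x := rfl

theorem F3.res [Finite G] (h : F3 φ) (H : Subgroup G) (hH : ∀ x ∈ H, φ x ∈ H) :
    F3 (resHom φ H hH) where
  cube x := Subtype.ext (h.cube x)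
  no3 hd := h.no3 (hd.trans (Subgroup.card_subgroup_dvd_card H))
  fix x hx := by
    have h1 : φ x = x := congrArg Subtype.val hx
    have h2 := h.fix _ h1
    rwa [Subgroup.orderOf_coe] at h2

/-- The induced map on a quotient by an invariant normal subgroup. -/
def quotHom (φ : G →* G) (N : Subgroup G) [N.Normal] (hN : ∀ x ∈ N, φ x ∈ N) : G ⧸ N →* G ⧸ N :=
  QuotientGroup.map N N φ (fun x hx => hN x hx)

@[simp] theorem quotHom_mk (N : Subgroup G) [N.Normal] (hN : ∀ x ∈ N, φ x ∈ N) (x : G) :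
    quotHom φ N hN (x : G ⧸ N) = ((φ x : G) : G ⧸ N) := rfl

/-- If `φ` moves `x` inside `N` (invariant), then the coset `xN` contains a fixed point. -/
theorem F3.exists_fixed_coset [Finite G] (h : F3 φ) (N : Subgroup G) (hN : ∀ x ∈ N, φ x ∈ N)
    (x : G) (hx : x⁻¹ * φ x ∈ N) : ∃ y, φ y = y ∧ x⁻¹ * y ∈ N := by
  let α := {y : G // x⁻¹ * y ∈ N}
  let f : α → α := fun y => ⟨φ y.1, by
    have h1 := hN _ y.2
    rw [map_mul, map_inv] at h1
    have h2 := N.mul_mem hx h1
    have e : x⁻¹ * φ x * ((φ x)⁻¹ * φ y.1) = x⁻¹ * φ y.1 := by group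
    rwa [e] at h2⟩
  have hf : ∀ y, f (f (f y)) = y := fun y => Subtype.ext (h.cube y.1)
  have hcard : Nat.card α = Nat.card N := by
    refine Nat.card_congr ⟨fun y => ⟨x⁻¹ * y.1, y.2⟩, fun n => ⟨x * n.1, by simpa using n.2⟩, ?_, ?_⟩
    · intro y; apply Subtype.ext; simp
    · intro y; apply Subtype.ext; simp
  have hno : ¬ 3 ∣ Nat.card α := by
    rw [hcard]
    exact fun hd => h.no3 (hd.trans (Subgroup.card_subgroup_dvd_card N))
  obtain ⟨y, hy⟩ := exists_fixed_of_cube f hf hno
  exact ⟨y.1, congrArg Subtype.val hy, y.2⟩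

theorem F3.quot [Finite G] (h : F3 φ) (N : Subgroup G) [N.Normal] (hN : ∀ x ∈ N, φ x ∈ N) :
    F3 (quotHom φ N hN) where
  cube x := by
    induction x using QuotientGroup.induction_on with
    | H x => simp only [quotHom_mk, h.cube]
  no3 hd := h.no3 (hd.trans (Subgroup.card_quotient_dvd_card N))
  fix x hx := by
    induction x using QuotientGroup.induction_on with
    | H x =>
      rw [quotHom_mk] at hx
      have h1 : x⁻¹ * φ x ∈ N := by
        have := QuotientGroup.eq.mp hx.symm
        exact this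
      obtain ⟨y, hy, hy2⟩ := h.exists_fixed_coset N hN x h1
      have e : (x : G ⧸ N) = (y : G ⧸ N) := QuotientGroup.eq.mpr hy2
      rw [e]
      intro hd
      have h2 : orderOf (y : G ⧸ N) ∣ orderOf y := by
        apply orderOf_dvd_of_pow_eq_one
        rw [← QuotientGroup.mk_pow, pow_orderOf_eq_one]
        rfl
      exact h.fix y hy (hd.trans h2)

/-- Invariant Sylow subgroups. -/
theorem F3.exists_sylow [Finite G] (h : F3 φ) (p : ℕ) [Fact p.Prime] :
    ∃ S : Sylow p G, ∀ x ∈ (S : Subgroup G), φ x ∈ (S : Subgroup G) := by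
  classical
  let f : Sylow p G → Sylow p G := fun S => S.mapSurjective h.surj
  have hfc : ∀ S : Sylow p G, ((f S : Sylow p G) : Subgroup G) = (S : Subgroup G).map φ :=
    fun S => Sylow.coe_mapSurjective _ _
  have hf : ∀ S, f (f (f S)) = S := by
    intro S
    apply Sylow.ext
    rw [hfc, hfc, hfc]
    ext x
    simp only [Subgroup.mem_map]
    constructor
    · rintro ⟨a, ⟨b, ⟨c, hc, rfl⟩, rfl⟩, rfl⟩
      rw [h.cube]
      exact hc
    · intro hx
      exact ⟨φ (φ x), ⟨φ x, ⟨x, hx, rfl⟩, rfl⟩, h.cube x⟩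
  have hno : ¬ 3 ∣ Nat.card (Sylow p G) := by
    intro hd
    obtain ⟨S⟩ : Nonempty (Sylow p G) := inferInstance
    have h1 : Nat.card (Sylow p G) ∣ (S : Subgroup G).index := Sylow.card_dvd_index S
    exact h.no3 (hd.trans (h1.trans (Subgroup.index_dvd_card _)))
  obtain ⟨S, hS⟩ := exists_fixed_of_cube f hf hno
  refine ⟨S, fun x hx => ?_⟩
  rw [← hS, hfc]
  exact ⟨x, hx, rfl⟩

/-- On an invariant 2-subgroup there are no nontrivial fixed points. -/
theorem F3.fpf_of_isPGroup [Finite G] (h : F3 φ) (hG : IsPGroup 2 G) {x : G} (hx : φ x = x) :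
    x = 1 := by
  obtain ⟨k, hk⟩ := hG x
  exact h.eq_one_of_fixed hx hk

end Cfsg.Agent.Lib.FPS3.Basic
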