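import Cfsg.Agent.Lib.FPS3.Basic
import Mathlib.GroupTheory.Commutator.Basic
import Mathlib.GroupTheory.PGroup

/-!
# A 2-group with a fixed-point-free automorphism of order 3 has class at most 2
-/

set_option autoImplicit false
set_option linter.unusedSectionVars false
set_option linter.unusedVariables false

namespace Cfsg.Agent.Lib.FPS3.ClassTwo

open Subgroup Cfsg.Agent.Lib.FPS3.Basic
open scoped commutatorElement

section Levi

variable {T : Type*} [Group T]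

/-- Multiply by a central element on the left of a commutator. -/
theorem comm_central_mul {z w c : T} (hz : ∀ d, z * d = d * z) : ⁅z * w, c⁆ = ⁅w, c⁆ := by
  rw [commutatorElement_def, commutatorElement_def]
  have : z * w * c * (z * w)⁻¹ = w * c * w⁻¹ := by
    have h := hz (w * c * w⁻¹)
    calc z * w * c * (z * w)⁻¹ = (z * (w * c * w⁻¹)) * z⁻¹ := by group
      _ = (w * c * w⁻¹ * z) * z⁻¹ := by rw [h]
      _ = w * c * w⁻¹ := by group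
  rw [this]

/-- `⁅v w, c⁆` for central `⁅w, c⁆`. -/
theorem comm_mul_left_of_central {v w c : T} (hz : ∀ d, ⁅w, c⁆ * d = d * ⁅w, c⁆) :
    ⁅v * w, c⁆ = ⁅w, c⁆ * ⁅v, c⁆ := by
  have h : ⁅v * w, c⁆ = v * ⁅w, c⁆ * v⁻¹ * ⁅v, c⁆ := by
    simp only [commutatorElement_def]; group
  rw [h, ← hz v]
  group

/-- `⁅u, c d⁆` for central `⁅u, d⁆`. -/
theorem comm_mul_right_of_central {u c d : T} (hz : ∀ e, ⁅u, d⁆ * e = e * ⁅u, d⁆) :
    ⁅u, c * d⁆ = ⁅u, c⁆ * ⁅u, d⁆ := by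
  have h : ⁅u, c * d⁆ = ⁅u, c⁆ * (c * ⁅u, d⁆ * c⁻¹) := by
    simp only [commutatorElement_def]; group
  rw [h, ← hz c]
  group

/-- Class at most three and 2-Engel implies the triple commutators have exponent 3. -/
theorem levi (hc : ∀ a b c d : T, ⁅⁅a, b⁆, c⁆ * d = d * ⁅⁅a, b⁆, c⁆)
    (hE : ∀ a b : T, ⁅⁅a, b⁆, b⁆ = 1) (a b c : T) : ⁅⁅a, b⁆, c⁆ ^ 3 = 1 := by
  -- the conjugate of `w` is `w` times a central element
  have hconj : ∀ x w : T, (∃ p q : T, w = ⁅p, q⁆) → ∃ z : T, (∀ d, z * d = d * z) ∧ x * w * x⁻¹ = z * w := by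
    rintro x w ⟨p, q, rfl⟩
    refine ⟨⁅⁅p, q⁆, x⁆⁻¹, ?_, ?_⟩
    · intro d
      have := hc p q x d
      calc ⁅⁅p, q⁆, x⁆⁻¹ * d = ⁅⁅p, q⁆, x⁆⁻¹ * (d * ⁅⁅p, q⁆, x⁆) * ⁅⁅p, q⁆, x⁆⁻¹ := by group
        _ = ⁅⁅p, q⁆, x⁆⁻¹ * (⁅⁅p, q⁆, x⁆ * d) * ⁅⁅p, q⁆, x⁆⁻¹ := by rw [this]
        _ = d * ⁅⁅p, q⁆, x⁆⁻¹ := by group
    · simp only [commutatorElement_def]; group
  -- multiplicativity
  have m1 : ∀ x y b c : T, ⁅⁅x * y, b⁆, c⁆ = ⁅⁅y, b⁆, c⁆ * ⁅⁅x, b⁆, c⁆ := by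
    intro x y b c
    have h : ⁅x * y, b⁆ = x * ⁅y, b⁆ * x⁻¹ * ⁅x, b⁆ := by
      simp only [commutatorElement_def]; group
    obtain ⟨z, hz, e⟩ := hconj x ⁅y, b⁆ ⟨y, b, rfl⟩
    rw [h, e, mul_assoc z, comm_central_mul hz, comm_mul_left_of_central (hc x b c), (hc y b c _)]
  have m2 : ∀ a x y c : T, ⁅⁅a, x * y⁆, c⁆ = ⁅⁅a, y⁆, c⁆ * ⁅⁅a, x⁆, c⁆ := by
    intro a x y c
    have h : ⁅a, x * y⁆ = ⁅a, x⁆ * (x * ⁅a, y⁆ * x⁻¹) := by
      simp only [commutatorElement_def]; group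
    obtain ⟨z, hz, e⟩ := hconj x ⁅a, y⁆ ⟨a, y, rfl⟩
    have e2 : ⁅a, x⁆ * (z * ⁅a, y⁆) = z * (⁅a, x⁆ * ⁅a, y⁆) := by
      rw [← mul_assoc, ← hz, mul_assoc]
    rw [h, e, e2, comm_central_mul hz, comm_mul_left_of_central (hc a y c)]
  have m3 : ∀ a b c d : T, ⁅⁅a, b⁆, c * d⁆ = ⁅⁅a, b⁆, c⁆ * ⁅⁅a, b⁆, d⁆ :=
    fun a b c d => comm_mul_right_of_central (hc a b d)
  -- commutativity of triple commutators
  have hcm : ∀ a b c a' b' c' : T, ⁅⁅a, b⁆, c⁆ * ⁅⁅a', b'⁆, c'⁆ = ⁅⁅a', b'⁆, c'⁆ * ⁅⁅a, b⁆, c⁆ :=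
    fun a b c a' b' c' => hc a b c _
  -- skew symmetry in the last two variables
  have sk23 : ∀ a b c : T, ⁅⁅a, c⁆, b⁆ = ⁅⁅a, b⁆, c⁆⁻¹ := by
    intro a b c
    have h0 : ⁅⁅a, b * c⁆, b * c⁆ = 1 := hE _ _
    rw [m3, m2, m2, hE a b, hE a c, one_mul, mul_one] at h0
    exact eq_inv_of_mul_eq_one_left h0
  have sk12 : ∀ a b c : T, ⁅⁅b, a⁆, c⁆ = ⁅⁅a, b⁆, c⁆⁻¹ := by
    intro a b c
    have h0 : ⁅⁅b, a⁆ * ⁅a, b⁆, c⁆ = 1 := by
      have e : ⁅b, a⁆ * ⁅a, b⁆ = 1 := by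
        simp only [commutatorElement_def]; group
      rw [e]
      simp [commutatorElement_def]
    rw [comm_mul_left_of_central (hc a b c)] at h0
    exact eq_inv_of_mul_eq_one_right h0
  have cyc1 : ∀ a b c : T, ⁅⁅b, c⁆, a⁆ = ⁅⁅a, b⁆, c⁆ := by
    intro a b c
    rw [sk12 c b a, sk23 c a b, inv_inv, sk12 a c b, sk23 a b c, inv_inv]
  have cyc2 : ∀ a b c : T, ⁅⁅c, a⁆, b⁆ = ⁅⁅a, b⁆, c⁆ := fun a b c =>
    (cyc1 b c a).trans (cyc1 a b c)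
  have inv1 : ∀ x y z : T, ⁅⁅x⁻¹, y⁆, z⁆ = ⁅⁅x, y⁆, z⁆⁻¹ := by
    intro x y z
    have h0 : ⁅⁅x⁻¹ * x, y⁆, z⁆ = 1 := by
      simp [commutatorElement_def]
    rw [m1] at h0
    exact eq_inv_of_mul_eq_one_right h0
  have hw : ∀ x y z : T, x * ⁅⁅x⁻¹, y⁆, z⁆ * x⁻¹ * (z * ⁅⁅z⁻¹, x⁆, y⁆ * z⁻¹) *
      (y * ⁅⁅y⁻¹, z⁆, x⁆ * y⁻¹) = 1 := by
    intro x y z
    simp only [commutatorElement_def]
    group
  have hcen : ∀ x y z u : T, u * ⁅⁅x, y⁆, z⁆ * u⁻¹ = ⁅⁅x, y⁆, z⁆ := by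
    intro x y z u
    rw [← hc x y z u]
    group
  have h1 := hw a b c
  rw [hcen, hcen, hcen, inv1, inv1, inv1, cyc2 a b c, cyc1 a b c, ← mul_inv_rev, ← mul_inv_rev,
    inv_eq_one] at h1
  rw [pow_succ, pow_two, ← h1]
  group

end Levi

section Main

variable {T : Type*} [Group T] [Finite T] {φ : T →* T}

theorem surj_left (h : F3 φ) (hT : IsPGroup 2 T) (u : T) : ∃ x, x⁻¹ * φ x = u := by
  have hinj : Function.Injective (fun x : T => x⁻¹ * φ x) := by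
    intro x y hxy
    simp only at hxy
    have e : φ (y * x⁻¹) = y * x⁻¹ := by
      rw [map_mul, map_inv]
      have h1 : φ y = y * (x⁻¹ * φ x) := by rw [hxy]; group
      rw [h1]; group
    have h2 := h.fpf_of_isPGroup hT e
    exact (mul_inv_eq_one.mp h2).symm
  exact (Finite.surjective_of_injective hinj) u

theorem surj_right (h : F3 φ) (hT : IsPGroup 2 T) (u : T) : ∃ x, x * (φ x)⁻¹ = u := by
  have hinj : Function.Injective (fun x : T => x * (φ x)⁻¹) := by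
    intro x y hxy
    simp only at hxy
    have e : φ (y⁻¹ * x) = y⁻¹ * x := by
      rw [map_mul, map_inv]
      have h1 : φ x = (y * (φ y)⁻¹)⁻¹ * x := by
        rw [← hxy]; group
      rw [h1]; group
    have h2 := h.fpf_of_isPGroup hT e
    exact (inv_mul_eq_one.mp h2).symm
  exact (Finite.surjective_of_injective hinj) u

theorem cyc (h : F3 φ) (hT : IsPGroup 2 T) (u : T) : u * φ u * φ (φ u) = 1 := by
  obtain ⟨x, rfl⟩ := surj_left h hT u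
  simp only [map_mul, map_inv, h.cube]
  group

theorem comm_phi (h : F3 φ) (hT : IsPGroup 2 T) (x : T) : x * φ x = φ x * x := by
  have h1 := cyc h hT x
  have h2 := cyc h hT (x * φ x)
  simp only [map_mul, h.cube] at h2
  have h3 := cyc h hT (φ x)
  simp only [h.cube] at h3
  have h4 := cyc h hT (φ (φ x))
  simp only [h.cube] at h4
  have e1 : x * φ x = (φ (φ x))⁻¹ := eq_inv_of_mul_eq_one_left h1
  have e2 : φ x * φ (φ x) = x⁻¹ := eq_inv_of_mul_eq_one_left h3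
  have e3 : φ (φ x) * x = (φ x)⁻¹ := eq_inv_of_mul_eq_one_left h4
  rw [e2, e3, e1] at h2
  have h5 : φ x * x * φ (φ x) = 1 := by
    have := congrArg Inv.inv h2
    simpa [mul_assoc] using this
  rw [e1]
  exact (eq_inv_of_mul_eq_one_left h5).symm

theorem comm_conj (h : F3 φ) (hT : IsPGroup 2 T) (x r : T) :
    x * (r * φ x * r⁻¹) = (r * φ x * r⁻¹) * x := by
  obtain ⟨k, rfl⟩ := surj_right h hT r
  have h1 := comm_phi h hT (k⁻¹ * x * k)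
  simp only [map_mul, map_inv] at h1
  calc x * (k * (φ k)⁻¹ * φ x * (k * (φ k)⁻¹)⁻¹)
      = k * (k⁻¹ * x * k * ((φ k)⁻¹ * φ x * φ k)) * k⁻¹ := by group
    _ = k * ((φ k)⁻¹ * φ x * φ k * (k⁻¹ * x * k)) * k⁻¹ := by rw [h1]
    _ = k * (φ k)⁻¹ * φ x * (k * (φ k)⁻¹)⁻¹ * x := by group

theorem comm_conj2 (h : F3 φ) (hT : IsPGroup 2 T) (x r : T) :
    x * (r * φ (φ x) * r⁻¹) = (r * φ (φ x) * r⁻¹) * x := by
  have h1 := comm_conj h hT (φ (φ x)) r⁻¹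
  rw [h.cube] at h1
  calc x * (r * φ (φ x) * r⁻¹) = r * ((r⁻¹ * x * r⁻¹⁻¹) * φ (φ x)) * r⁻¹ := by group
    _ = r * (φ (φ x) * (r⁻¹ * x * r⁻¹⁻¹)) * r⁻¹ := by rw [h1]
    _ = (r * φ (φ x) * r⁻¹) * x := by group

theorem comm_conj_self (h : F3 φ) (hT : IsPGroup 2 T) (x r : T) :
    x * (r * x * r⁻¹) = (r * x * r⁻¹) * x := by
  have h1 := comm_conj h hT x r
  have h2 := comm_conj2 h hT x r
  have h3 : φ x * φ (φ x) = x⁻¹ := by
    have := cyc h hT (φ x)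
    rw [h.cube] at this
    exact eq_inv_of_mul_eq_one_left this
  have h4 : r * x⁻¹ * r⁻¹ = (r * φ x * r⁻¹) * (r * φ (φ x) * r⁻¹) := by
    rw [← h3]; group
  have h5 : x * (r * x⁻¹ * r⁻¹) = (r * x⁻¹ * r⁻¹) * x := by
    rw [h4]
    calc x * ((r * φ x * r⁻¹) * (r * φ (φ x) * r⁻¹))
        = (x * (r * φ x * r⁻¹)) * (r * φ (φ x) * r⁻¹) := (mul_assoc _ _ _).symm
      _ = ((r * φ x * r⁻¹) * x) * (r * φ (φ x) * r⁻¹) := by rw [h1]
      _ = (r * φ x * r⁻¹) * (x * (r * φ (φ x) * r⁻¹)) := mul_assoc _ _ _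
      _ = (r * φ x * r⁻¹) * ((r * φ (φ x) * r⁻¹) * x) := by rw [h2]
      _ = ((r * φ x * r⁻¹) * (r * φ (φ x) * r⁻¹)) * x := (mul_assoc _ _ _).symm
  -- invert
  have h6 := congrArg Inv.inv h5
  have e1 : (x * (r * x⁻¹ * r⁻¹))⁻¹ = (r * x * r⁻¹) * x⁻¹ := by group
  have e2 : (r * x⁻¹ * r⁻¹ * x)⁻¹ = x⁻¹ * (r * x * r⁻¹) := by group
  rw [e1, e2] at h6
  calc x * (r * x * r⁻¹) = x * ((r * x * r⁻¹) * x⁻¹) * x := by group
    _ = x * (x⁻¹ * (r * x * r⁻¹)) * x := by rw [h6]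
    _ = (r * x * r⁻¹) * x := by group

theorem engel (h : F3 φ) (hT : IsPGroup 2 T) (a b : T) : ⁅⁅a, b⁆, b⁆ = 1 := by
  have h1 := comm_conj_self h hT b a
  rw [commutatorElement_eq_one_iff_mul_comm]
  simp only [commutatorElement_def]
  calc a * b * a⁻¹ * b⁻¹ * b = (a * b * a⁻¹) * b * b⁻¹ := by group
    _ = b * (a * b * a⁻¹) * b⁻¹ := by rw [← h1]
    _ = b * (a * b * a⁻¹ * b⁻¹) := by group

end Main

universe u

theorem class_two_aux (n : ℕ) : ∀ (T : Type u) [Group T] [Finite T] (φ : T →* T), F3 φ →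
    IsPGroup 2 T → Nat.card T = n → ∀ x y z : T, ⁅⁅x, y⁆, z⁆ = 1 := by
  induction n using Nat.strong_induction_on with
  | _ n ih =>
    intro T _ _ φ h hT hn x y z
    by_cases hsub : Subsingleton T
    · exact Subsingleton.elim _ _
    haveI : Nontrivial T := not_subsingleton_iff_nontrivial.mp hsub
    haveI hcn := hT.center_nontrivial
    have hZ : ∀ x ∈ Subgroup.center T, φ x ∈ Subgroup.center T := by
      intro x hx
      rw [Subgroup.mem_center_iff] at hx ⊢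
      intro g
      obtain ⟨g', rfl⟩ := h.surj g
      rw [← map_mul, ← map_mul, hx]
    have hQ := h.quot (Subgroup.center T) hZ
    have hcard : Nat.card (T ⧸ Subgroup.center T) < n := by
      have h1 := Subgroup.card_eq_card_quotient_mul_card_subgroup (Subgroup.center T)
      have h2 : 1 < Nat.card (Subgroup.center T) := Finite.one_lt_card
      have h3 : 0 < Nat.card (T ⧸ Subgroup.center T) := Nat.card_pos
      rw [← hn, h1]
      nlinarith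
    have ih2 := ih _ hcard (T ⧸ Subgroup.center T) _ hQ (hT.to_quotient _) rfl
    have hc : ∀ a b c d : T, ⁅⁅a, b⁆, c⁆ * d = d * ⁅⁅a, b⁆, c⁆ := by
      intro a b c d
      have h1 := ih2 (a : T ⧸ Subgroup.center T) b c
      have h2 : ((⁅⁅a, b⁆, c⁆ : T) : T ⧸ Subgroup.center T) = 1 := by
        rw [← h1]; rfl
      have h3 : ⁅⁅a, b⁆, c⁆ ∈ Subgroup.center T := (QuotientGroup.eq_one_iff _).mp h2
      exact ((Subgroup.mem_center_iff.mp h3) d).symm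
    have h3 := levi hc (engel h hT) x y z
    obtain ⟨k, hk⟩ := hT ⁅⁅x, y⁆, z⁆
    have h4 : orderOf ⁅⁅x, y⁆, z⁆ ∣ Nat.gcd (3) (2 ^ k) :=
      Nat.dvd_gcd (orderOf_dvd_of_pow_eq_one h3) (orderOf_dvd_of_pow_eq_one hk)
    have h5 : Nat.gcd 3 (2 ^ k) = 1 := Nat.Coprime.pow_right k (by norm_num)
    rw [h5, Nat.dvd_one, orderOf_eq_one_iff] at h4
    exact h4

/-- A 2-group admitting a fixed point free endomorphism of period three has class at most two. -/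
theorem class_two {T : Type u} [Group T] [Finite T] {φ : T →* T} (h : F3 φ) (hT : IsPGroup 2 T)
    (x y z : T) : ⁅⁅x, y⁆, z⁆ = 1 :=
  class_two_aux _ T φ h hT rfl x y z

end Cfsg.Agent.Lib.FPS3.ClassTwo
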