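import Cfsg.Agent.Lib.FPS3.Basic
import Cfsg.Agent.Lib.PGroups.Critical
import Mathlib.Tactic.NoncommRing
import Mathlib.Algebra.Group.Hom.End

/-!
# Odd order automorphism groups of `F₄`-spaces normalized by `ω` are `F₄`-linear

Let `A` be a ring of characteristic two, `s` a unit with `s² + s + 1 = 0`, and `R` a finite group of
units of order prime to `6` normalized by `s`. Then `s` centralizes `R`.
-/

set_option autoImplicit false
set_option linter.unusedSectionVars false
set_option linter.unusedVariables false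

namespace Cfsg.Agent.Lib.FPS3.Omega

open Subgroup Cfsg.Agent.Lib.FPS3.Basic Cfsg.Agent.Lib.PGroups.Critical
open scoped commutatorElement

section Ring

variable {A : Type*} [Ring A]

theorem eq_of_add_eq_zero (hA : ∀ a : A, a + a = 0) {a b : A} (h : a + b = 0) : a = b := by
  have h1 : a = a + b + b := by rw [add_assoc, hA, add_zero]
  rw [h1, h, zero_add]

theorem add_eq_zero_of_eq (hA : ∀ a : A, a + a = 0) {a b : A} (h : a = b) : a + b = 0 := by
  rw [h, hA]

/-- The right stabilizer of an element in the unit group. -/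
def stab (D : A) : Subgroup Aˣ where
  carrier := {u | D * (u : A) = D}
  mul_mem' := by
    intro a b ha hb
    simp only [Set.mem_ofPred_eq] at ha hb ⊢
    rw [Units.val_mul, ← mul_assoc, ha, hb]
  one_mem' := by simp
  inv_mem' := by
    intro a ha
    simp only [Set.mem_ofPred_eq] at ha ⊢
    nth_rewrite 1 [← ha]
    rw [mul_assoc, Units.mul_inv, mul_one]

theorem mem_stab {D : A} {u : Aˣ} : u ∈ stab D ↔ D * (u : A) = D := Iff.rfl

theorem rk1 (hA : ∀ a : A, a + a = 0) (x y : Aˣ) (he1 : ⁅x, y⁆ * x = x * ⁅x, y⁆)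
    (he2 : ⁅x, y⁆ * y = y * ⁅x, y⁆) (hc : (y : A) + ↑y⁻¹ = x + ↑x⁻¹)
    (hodd : ¬ 2 ∣ orderOf ⁅x, y⁆) : x * y = y * x := by
  set e : Aˣ := ⁅x, y⁆ with he
  have hxy : x * y * x⁻¹ = e * y := by
    rw [he, commutatorElement_def]; group
  have hxy' : x * y⁻¹ * x⁻¹ = e⁻¹ * y⁻¹ := by
    have h1 : x * y⁻¹ * x⁻¹ = (x * y * x⁻¹)⁻¹ := by group
    rw [h1, hxy, mul_inv_rev]
    have h2 : y⁻¹ * e⁻¹ = (e * y)⁻¹ := by group
    have h3 : e⁻¹ * y⁻¹ = (y * e)⁻¹ := by group
    rw [h2, h3, he2]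
  have hex : x * e * x⁻¹ = e := by
    rw [← he1]; group
  have hex' : x * e⁻¹ * x⁻¹ = e⁻¹ := by
    have h1 : x * e⁻¹ * x⁻¹ = (x * e * x⁻¹)⁻¹ := by group
    rw [h1, hex]
  -- conjugation by x in the ring
  let cj : A → A := fun t => (x : A) * t * ↑x⁻¹
  have cj_add : ∀ a b, cj (a + b) = cj a + cj b := fun a b => by
    simp only [cj, mul_add, add_mul]
  have cj_unit : ∀ u : Aˣ, cj (u : A) = ((x * u * x⁻¹ : Aˣ) : A) := fun u => by
    simp only [cj, Units.val_mul]
  have hc0 : cj ((x : A) + ↑x⁻¹) = (x : A) + ↑x⁻¹ := by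
    rw [cj_add, cj_unit, cj_unit]
    have h1 : x * x * x⁻¹ = x := by group
    have h2 : x * x⁻¹ * x⁻¹ = x⁻¹ := by group
    rw [h1, h2]
  set E : A := (e : A) with hE
  set F : A := ((e⁻¹ : Aˣ) : A) with hF
  set Y : A := (y : A) with hY
  set Yi : A := ((y⁻¹ : Aˣ) : A) with hYi
  have hEF : E * F = 1 := Units.mul_inv e
  have hFE : F * E = 1 := Units.inv_mul e
  have hYY : Yi * Y = 1 := Units.inv_mul y
  have hYY' : Y * Yi = 1 := Units.mul_inv y
  -- first relation
  have G0 : E * Y + F * Yi = Y + Yi := by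
    have h0 := hc0
    rw [← hc, cj_add, cj_unit, cj_unit, hxy, hxy'] at h0
    simpa only [Units.val_mul] using h0
  -- second relation
  have G1 : E * E * Y + F * F * Yi = Y + Yi := by
    have h0 : cj (E * Y + F * Yi) = Y + Yi := by
      rw [G0]
      rw [hc]
      exact hc0
    have e1 : (E * Y : A) = ((e * y : Aˣ) : A) := by simp [hE, hY]
    have e2 : (F * Yi : A) = ((e⁻¹ * y⁻¹ : Aˣ) : A) := by simp [hF, hYi]
    rw [cj_add, e1, e2, cj_unit, cj_unit] at h0
    have e3 : x * (e * y) * x⁻¹ = e * (e * y) := by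
      have : x * (e * y) * x⁻¹ = (x * e * x⁻¹) * (x * y * x⁻¹) := by group
      rw [this, hex, hxy]
    have e4 : x * (e⁻¹ * y⁻¹) * x⁻¹ = e⁻¹ * (e⁻¹ * y⁻¹) := by
      have : x * (e⁻¹ * y⁻¹) * x⁻¹ = (x * e⁻¹ * x⁻¹) * (x * y⁻¹ * x⁻¹) := by group
      rw [this, hex', hxy']
    rw [e3, e4] at h0
    simpa only [Units.val_mul, mul_assoc] using h0
  set P : A := E + 1 with hP
  have hPP : P * P = E * E + 1 := by
    rw [hP]
    have : (E + 1) * (E + 1) = E * E + (E + E) + 1 := by noncomm_ring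
    rw [this, hA, add_zero]
  have G0' : P * Y = (F + 1) * Yi := by
    apply eq_of_add_eq_zero hA
    have : P * Y + (F + 1) * Yi = (E * Y + F * Yi) + (Y + Yi) := by
      rw [hP]; noncomm_ring
    rw [this, G0, hA]
  have G1' : (E * E + 1) * Y = (F * F + 1) * Yi := by
    apply eq_of_add_eq_zero hA
    have : (E * E + 1) * Y + (F * F + 1) * Yi = (E * E * Y + F * F * Yi) + (Y + Yi) := by
      noncomm_ring
    rw [this, G1, hA]
  have h3 : F * F + 1 = P * (F + 1) := by
    have h4 : (F * F + 1) * Yi = (P * (F + 1)) * Yi := by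
      rw [← G1', ← hPP, mul_assoc P P Y, G0', mul_assoc]
    have h5 := congrArg (fun t => t * Y) h4
    simpa only [mul_assoc, hYY, mul_one] using h5
  have h4 : P * (F + 1) = E + F := by
    rw [hP]
    have : (E + 1) * (F + 1) = E * F + E + F + 1 := by noncomm_ring
    rw [this, hEF]
    have : 1 + E + F + 1 = E + F + (1 + 1) := by abel
    rw [this, hA, add_zero]
  rw [h4] at h3
  -- multiply by `E²`
  have h5 : E * E * (F * F + 1) = E * E * (E + F) := by rw [h3]
  have h6 : E * E * (F * F) = 1 := by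
    calc E * E * (F * F) = E * (E * F) * F := by noncomm_ring
      _ = 1 := by rw [hEF, mul_one, hEF]
  have h7 : E * E * F = E := by rw [mul_assoc, hEF, mul_one]
  have h8 : 1 + E * E + (E * E * E + E) = 0 := by
    have l : E * E * (F * F + 1) = 1 + E * E := by rw [mul_add, h6, mul_one]
    have r : E * E * (E + F) = E * E * E + E := by rw [mul_add, h7]
    rw [l, r] at h5
    exact add_eq_zero_of_eq hA h5
  have h9 : E ^ 4 = 1 := by
    apply eq_of_add_eq_zero hA
    have : E ^ 4 + 1 = (E + 1) * (1 + E * E + (E * E * E + E)) - (E + E) - (E * E + E * E) -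
        (E * E * E + E * E * E) := by noncomm_ring
    rw [this, h8, mul_zero, hA, hA, hA]
    simp
  have h10 : e ^ 4 = 1 := by
    apply Units.ext
    simpa [hE] using h9
  have h11 : orderOf e ∣ 2 ^ 2 := orderOf_dvd_of_pow_eq_one h10
  obtain ⟨j, hj, hj2⟩ := (Nat.dvd_prime_pow Nat.prime_two).mp h11
  have h12 : e = 1 := by
    rcases Nat.eq_zero_or_pos j with rfl | hpos
    · rw [pow_zero] at hj2
      exact orderOf_eq_one_iff.mp hj2
    · exact absurd (hj2 ▸ dvd_pow_self 2 hpos.ne') hodd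
  rw [he] at h12
  exact commutatorElement_eq_one_iff_mul_comm.mp h12

theorem stab_key (hA : ∀ a : A, a + a = 0) (x y : Aˣ) (hxy : x * y = y * x)
    (hR : ((x * y : Aˣ) : A) + ↑(x * y)⁻¹ = x + ↑x⁻¹) :
    ((y : A) + 1) * ↑(x * x * y) = (y : A) + 1 := by
  set P : A := ((x * y : Aˣ) : A) with hP
  set W : A := ((x * x * y : Aˣ) : A) with hW
  have h0 := congrArg (fun t => P * t) hR
  simp only [mul_add] at h0
  have e1 : P * ↑(x * y)⁻¹ = 1 := Units.mul_inv (x * y)
  have e2 : P * (x : A) = W := by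
    rw [hP, hW, ← Units.val_mul]
    congr 1
    rw [mul_assoc x y x, ← hxy, mul_assoc]
  have e3 : P * ((x⁻¹ : Aˣ) : A) = y := by
    rw [hP, ← Units.val_mul]
    congr 1
    rw [hxy]; group
  rw [e1, e2, e3] at h0
  have e4 : (y : A) * W = P * P := by
    rw [hP, hW, ← Units.val_mul, ← Units.val_mul]
    congr 1
    calc y * (x * x * y) = (y * x) * x * y := by group
      _ = (x * y) * x * y := by rw [hxy]
      _ = (x * y) * (x * y) := by group
  apply eq_of_add_eq_zero hA
  have : ((y : A) + 1) * W + ((y : A) + 1) = (P * P + 1) + (W + y) := by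
    rw [add_mul, e4, one_mul]; abel
  rw [this, h0, hA]

theorem rk2 (hA : ∀ a : A, a + a = 0) (x y : Aˣ) (hxy : x * y = y * x)
    (h1 : (y : A) + ↑y⁻¹ = x + ↑x⁻¹) (h2 : ((x * y : Aˣ) : A) + ↑(x * y)⁻¹ = x + ↑x⁻¹)
    (hx : ¬ 2 ∣ orderOf x) (hy2 : ¬ 2 ∣ orderOf y) (hy3 : ¬ 3 ∣ orderOf y) : x = 1 := by
  set A₁ : A := (x : A) + 1 with hA₁
  set B₁ : A := (y : A) + 1 with hB₁
  have hXY : (x : A) * y = y * x := by
    rw [← Units.val_mul, ← Units.val_mul, hxy]
  have hAB : A₁ * B₁ = B₁ * A₁ := by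
    rw [hA₁, hB₁]
    simp only [add_mul, mul_add, mul_one, one_mul, hXY]
    abel
  have k1 : x * x * y ∈ stab B₁ := stab_key hA x y hxy h2
  have k2 : y * y * x ∈ stab A₁ := by
    apply stab_key hA y x hxy.symm
    rw [← hxy, h2, h1]
  set D : A := A₁ * B₁ with hD
  have k3 : stab B₁ ≤ stab D := by
    intro u hu
    rw [mem_stab] at hu ⊢
    rw [hD, mul_assoc, hu]
  have k4 : stab A₁ ≤ stab D := by
    intro u hu
    rw [mem_stab] at hu ⊢
    rw [hAB, mul_assoc, hu]
  have hyx : y * x = x * y := hxy.symm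
  have k5 : y * y * y ∈ stab D := by
    have e : y * y * y = (x * x * y)⁻¹ * ((y * y * x) * (y * y * x)) := by
      have a1 : y * y * x = x * (y * y) := by
        rw [mul_assoc, hyx, ← mul_assoc, hyx, mul_assoc]
      have a2 : (y * y * x) * (y * y * x) = x * x * y * (y * y * y) := by
        rw [a1]
        calc x * (y * y) * (x * (y * y)) = x * ((y * y) * x) * (y * y) := by group
          _ = x * (x * (y * y)) * (y * y) := by rw [a1]
          _ = x * x * y * (y * y * y) := by group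
      rw [a2]; group
    rw [e]
    exact (stab D).mul_mem ((stab D).inv_mem (k3 k1)) ((stab D).mul_mem (k4 k2) (k4 k2))
  have k6 : y ∈ stab D := by
    have hc : Nat.Coprime 3 (orderOf y) := (Nat.Prime.coprime_iff_not_dvd Nat.prime_three).mpr hy3
    obtain ⟨m, hm⟩ := exists_pow_eq_self_of_coprime hc
    rw [← hm]
    apply (stab D).pow_mem
    have : y ^ 3 = y * y * y := by rw [pow_succ, pow_two]
    rw [this]; exact k5
  have k7 : y * y ∈ stab A₁ := by
    rw [mem_stab]
    have h3 : D * (y : A) = D := k6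
    have h4 : A₁ * (B₁ * B₁) = 0 := by
      have : B₁ * B₁ = B₁ * (y : A) + B₁ := by
        rw [hB₁]
        noncomm_ring
      rw [this, mul_add, ← mul_assoc, ← hD, h3, hA]
    have h5 : B₁ * B₁ = ((y * y : Aˣ) : A) + 1 := by
      rw [hB₁, Units.val_mul]
      have : ((y : A) + 1) * ((y : A) + 1) = (y : A) * y + ((y : A) + y) + 1 := by noncomm_ring
      rw [this, hA, add_zero]
    rw [h5, mul_add, mul_one] at h4
    exact eq_of_add_eq_zero hA h4
  have k8 : y ∈ stab A₁ := by
    have hc : Nat.Coprime 2 (orderOf y) := (Nat.Prime.coprime_iff_not_dvd Nat.prime_two).mpr hy2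
    obtain ⟨m, hm⟩ := exists_pow_eq_self_of_coprime hc
    rw [← hm]
    apply (stab A₁).pow_mem
    rw [pow_two]; exact k7
  have k9 : x ∈ stab A₁ := by
    have e : x = (y * y)⁻¹ * (y * y * x) := by group
    rw [e]
    exact (stab A₁).mul_mem ((stab A₁).inv_mem k7) k2
  rw [mem_stab] at k9
  have k10 : (x : A) * x = 1 := by
    apply eq_of_add_eq_zero hA
    have : (x : A) * x + 1 = A₁ * (x : A) + A₁ := by
      rw [hA₁]
      have : ((x : A) + 1) * x + ((x : A) + 1) = (x : A) * x + ((x : A) + x) + 1 := by noncomm_ring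
      rw [this, hA, add_zero]
    rw [this, k9, hA]
  have k11 : x ^ 2 = 1 := by
    apply Units.ext
    simpa [pow_two] using k10
  have k12 : orderOf x ∣ 2 ^ 1 := by
    rw [pow_one]; exact orderOf_dvd_of_pow_eq_one k11
  obtain ⟨j, hj, hj2⟩ := (Nat.dvd_prime_pow Nat.prime_two).mp k12
  rcases Nat.eq_zero_or_pos j with rfl | hpos
  · rw [pow_zero] at hj2
    exact orderOf_eq_one_iff.mp hj2
  · exact absurd (hj2 ▸ dvd_pow_self 2 hpos.ne') hx

theorem key (hA : ∀ a : A, a + a = 0) (s h : Aˣ) (hs : (s : A) * s + s + 1 = 0)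
    (x y : Aˣ) (hx : x = h⁻¹ * (s * h * s⁻¹)) (hy : y = s * x * s⁻¹)
    (he1 : ⁅x, y⁆ * x = x * ⁅x, y⁆) (he2 : ⁅x, y⁆ * y = y * ⁅x, y⁆)
    (hoe : ¬ 2 ∣ orderOf ⁅x, y⁆) (hox : ¬ 2 ∣ orderOf x) (hoy2 : ¬ 2 ∣ orderOf y)
    (hoy3 : ¬ 3 ∣ orderOf y) : x = 1 := by
  set S : A := (s : A) with hS
  have hSS : S * S = S + 1 := by
    apply eq_of_add_eq_zero hA
    rw [← add_assoc]; exact hs
  have h11 : (1 : A) + 1 = 0 := hA 1
  have hSi : ((s⁻¹ : Aˣ) : A) = S + 1 := by
    have h1 : S * (S + 1) = 1 := by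
      rw [mul_add, mul_one, hSS, add_right_comm, hA, zero_add]
    exact Units.inv_eq_of_mul_eq_one_right h1
  have hs3 : s * s * s = 1 := by
    apply Units.ext
    simp only [Units.val_mul, Units.val_one]
    rw [← hS, hSS, add_mul, hSS, one_mul, add_right_comm, hA, zero_add]
  set g : Aˣ := x * s with hg
  have hg' : g = h⁻¹ * s * h := by rw [hg, hx]; group
  set G : A := (g : A) with hG
  have hGG : G * G = G + 1 := by
    apply eq_of_add_eq_zero hA
    have h1 : G * G = ↑h⁻¹ * (S * S) * h := by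
      rw [hG, hg']
      simp only [Units.val_mul]
      calc (↑h⁻¹ * S * ↑h) * (↑h⁻¹ * S * ↑h) = ↑h⁻¹ * S * (↑h * ↑h⁻¹) * S * ↑h := by noncomm_ring
        _ = ↑h⁻¹ * (S * S) * h := by rw [Units.mul_inv]; noncomm_ring
    have h2 : G = ↑h⁻¹ * S * h := by
      rw [hG, hg']; simp only [Units.val_mul]; rfl
    have h3 : ((h⁻¹ : Aˣ) : A) * (h : A) = 1 := Units.inv_mul h
    have h4 : ((h⁻¹ : Aˣ) : A) * (S * S + S + 1) * h =
        ↑h⁻¹ * (S * S) * h + (↑h⁻¹ * S * h + ↑h⁻¹ * h) := by noncomm_ring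
    calc G * G + (G + 1) = ↑h⁻¹ * (S * S) * h + (↑h⁻¹ * S * h + ↑h⁻¹ * h) := by
          rw [h1, ← h2, h3]
      _ = ↑h⁻¹ * (S * S + S + 1) * h := h4.symm
      _ = 0 := by rw [hs]; simp
  have hGi : ((g⁻¹ : Aˣ) : A) = G + 1 := by
    have h1 : G * (G + 1) = 1 := by
      rw [mul_add, mul_one, hGG, add_right_comm, hA, zero_add]
    exact Units.inv_eq_of_mul_eq_one_right h1
  have hX : (x : A) = G * (S + 1) := by
    rw [← hSi, hG, ← Units.val_mul, hg]
    congr 1
    group
  have hXi : ((x⁻¹ : Aˣ) : A) = S * (G + 1) := by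
    rw [← hGi, ← Units.val_mul, hg]
    congr 1
    group
  set c : A := (x : A) + ↑x⁻¹ with hc
  have hcS : S * c = c * S := by
    rw [hc, hX, hXi]
    apply eq_of_add_eq_zero hA
    have l : S * (G * (S + 1) + S * (G + 1)) = S * (G * S) + S * G + (S * S) * G + S * S := by
      noncomm_ring
    have r : (G * (S + 1) + S * (G + 1)) * S = G * (S * S) + G * S + S * (G * S) + S * S := by
      noncomm_ring
    rw [l, r, hSS]
    have : S * (G * S) + S * G + (S + 1) * G + (S + 1) + (G * (S + 1) + G * S + S * (G * S) + (S + 1))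
      = (S * (G * S) + S * (G * S)) + (S * G + S * G) + (G * S + G * S) + (G + G) + ((S + 1) + (S + 1)) := by
      noncomm_ring
    rw [this]
    simp only [hA]
  have step : ∀ u : Aˣ, (u : A) + ↑u⁻¹ = c → ((s * u * s⁻¹ : Aˣ) : A) + ↑(s * u * s⁻¹)⁻¹ = c := by
    intro u hu
    have e : (s * u * s⁻¹)⁻¹ = s * u⁻¹ * s⁻¹ := by group
    rw [e]
    simp only [Units.val_mul]
    have : S * u * ↑s⁻¹ + S * ↑u⁻¹ * ↑s⁻¹ = S * ((u : A) + ↑u⁻¹) * ↑s⁻¹ := by noncomm_ring
    rw [this, hu, hcS, mul_assoc, hS, Units.mul_inv, mul_one]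
  have hy1 : (y : A) + ↑y⁻¹ = c := by
    rw [hy]; exact step x rfl
  set z : Aˣ := s * y * s⁻¹ with hz
  have hz1 : (z : A) + ↑z⁻¹ = c := step y hy1
  have hxyz : x * y * z = 1 := by
    have : x * y * z = h⁻¹ * (s * s * s) * h * (s * s * s)⁻¹ := by
      rw [hz, hy, hx]; group
    rw [this, hs3]; group
  have hz2 : z = (x * y)⁻¹ := eq_inv_of_mul_eq_one_right hxyz
  have h2 : ((x * y : Aˣ) : A) + ↑(x * y)⁻¹ = x + ↑x⁻¹ := by
    rw [← hc, ← hz1, hz2, inv_inv, add_comm]
  have hcomm : x * y = y * x := rk1 hA x y he1 he2 hy1 hoe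
  exact rk2 hA x y hcomm hy1 h2 hox hoy2 hoy3

theorem pgroup_fix (hA : ∀ a : A, a + a = 0) (s : Aˣ) (hs : (s : A) * s + s + 1 = 0)
    {P : Type*} [Group P] [Finite P] {p : ℕ} [hp : Fact p.Prime] (hP : IsPGroup p P)
    (hp2 : p ≠ 2) (hp3 : p ≠ 3) (ι : P →* Aˣ) (hι : Function.Injective ι) (a : MulAut P)
    (ha : ∀ x, ι (a x) = s * ι x * s⁻¹) : a = 1 := by
  have hord : ∀ (t : P) (q : ℕ), q.Prime → q ≠ p → ¬ q ∣ orderOf (ι t) := by
    intro t q hq hqp hd
    rw [orderOf_injective ι hι t] at hd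
    obtain ⟨k, hk⟩ := IsPGroup.iff_orderOf.mp hP t
    rw [hk] at hd
    exact hqp ((Nat.prime_dvd_prime_iff_eq hq hp.out).mp (hq.dvd_of_dvd_pow hd))
  obtain ⟨H, hchar, -, h2, h3⟩ := exists_critical hP
  have h11 : (1 : A) + 1 = 0 := hA 1
  have hSS : (s : A) * s = (s : A) + 1 := by
    apply eq_of_add_eq_zero hA
    rw [← add_assoc]; exact hs
  have hs3 : s * s * s = 1 := by
    apply Units.ext
    simp only [Units.val_mul, Units.val_one]
    rw [hSS, add_mul, hSS, one_mul, add_right_comm, hA, zero_add]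
  have ha3 : a ^ 3 = 1 := by
    ext x
    apply hι
    have h1 : (a ^ 3) x = a (a (a x)) := by
      rw [pow_succ, pow_two]; rfl
    rw [h1, ha, ha, ha]
    have e : s * (s * (s * ι x * s⁻¹) * s⁻¹) * s⁻¹ = (s * s * s) * ι x * (s * s * s)⁻¹ := by group
    rw [e, hs3]
    simp
  have hcop : Nat.Coprime (orderOf a) p := by
    have h1 : orderOf a ∣ 3 := orderOf_dvd_of_pow_eq_one ha3
    rcases (Nat.dvd_prime Nat.prime_three).mp h1 with h4 | h4
    · rw [h4]; exact Nat.coprime_one_left p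
    · rw [h4]
      exact (Nat.coprime_primes Nat.prime_three hp.out).mpr (Ne.symm hp3)
  refine eq_one_of_fixes_critical hP H h2 h3 a hcop ?_
  intro h₀ hh₀
  have hinv : ∀ x ∈ H, a x ∈ H := by
    intro x hx
    have h1 := (Subgroup.characteristic_iff_comap_eq.mp hchar a.symm)
    rw [← h1]
    show a.symm (a x) ∈ H
    simpa using hx
  set x₀ : P := h₀⁻¹ * a h₀ with hx₀
  have hx₀H : x₀ ∈ H := H.mul_mem (H.inv_mem hh₀) (hinv _ hh₀)
  set y₀ : P := a x₀ with hy₀
  have hy₀H : y₀ ∈ H := hinv _ hx₀H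
  have hec : ⁅x₀, y₀⁆ ∈ centralizer (H : Set P) :=
    (h2 (Subgroup.commutator_mem_commutator hx₀H (Subgroup.mem_top y₀))).2
  rw [mem_centralizer_iff] at hec
  have he1 : ι ⁅x₀, y₀⁆ * ι x₀ = ι x₀ * ι ⁅x₀, y₀⁆ := by
    rw [← map_mul, ← map_mul, hec _ hx₀H]
  have he2 : ι ⁅x₀, y₀⁆ * ι y₀ = ι y₀ * ι ⁅x₀, y₀⁆ := by
    rw [← map_mul, ← map_mul, hec _ hy₀H]
  rw [map_commutatorElement] at he1 he2
  have h5 := key hA s (ι h₀) hs (ι x₀) (ι y₀) (by rw [hx₀, map_mul, map_inv, ha]) (ha x₀) he1 he2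
    (by
      rw [← map_commutatorElement]
      exact hord _ 2 Nat.prime_two (Ne.symm hp2))
    (hord _ 2 Nat.prime_two (Ne.symm hp2)) (hord _ 2 Nat.prime_two (Ne.symm hp2))
    (hord _ 3 Nat.prime_three (Ne.symm hp3))
  have h6 : x₀ = 1 := hι (by rw [h5, map_one])
  rw [hx₀] at h6
  exact (inv_mul_eq_one.mp h6).symm

/-- The main theorem over a ring. -/
theorem omega_comm (hA : ∀ a : A, a + a = 0) (s : Aˣ) (hs : (s : A) * s + s + 1 = 0)
    (R : Subgroup Aˣ) [Finite R] (hsR : ∀ r ∈ R, s * r * s⁻¹ ∈ R) (h2 : ¬ 2 ∣ Nat.card R)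
    (h3 : ¬ 3 ∣ Nat.card R) : ∀ r ∈ R, s * r * s⁻¹ = r := by
  have hSS : (s : A) * s = (s : A) + 1 := by
    apply eq_of_add_eq_zero hA
    rw [← add_assoc]; exact hs
  have hs3 : s * s * s = 1 := by
    apply Units.ext
    simp only [Units.val_mul, Units.val_one]
    rw [hSS, add_mul, hSS, one_mul, add_right_comm, hA, zero_add]
  -- conjugation on `R`
  let α : R →* R :=
    { toFun := fun r => ⟨s * r * s⁻¹, hsR r r.2⟩
      map_one' := by apply Subtype.ext; simp
      map_mul' := by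
        intro a b; apply Subtype.ext; simp only [Subgroup.coe_mul]; group }
  have hαv : ∀ r : R, ((α r : R) : Aˣ) = s * r * s⁻¹ := fun r => rfl
  have hα : F3 α := by
    refine ⟨?_, h3, ?_⟩
    · intro x
      apply Subtype.ext
      rw [hαv, hαv, hαv]
      have e : s * (s * (s * (x : Aˣ) * s⁻¹) * s⁻¹) * s⁻¹ = (s * s * s) * x * (s * s * s)⁻¹ := by group
      rw [e, hs3]; simp
    · intro x _ hd
      exact h2 (hd.trans (orderOf_dvd_natCard x))
  let X : Subgroup R := MonoidHom.eqLocus α (MonoidHom.id R)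
  have hX : X = ⊤ := by
    apply Cfsg.Agent.Lib.Core.Basic.eq_top_of_forall_sylow_le
    intro p hp
    obtain ⟨S, hS⟩ := hα.exists_sylow p
    refine ⟨S, ?_⟩
    intro x hx
    by_cases hp23 : p = 2 ∨ p = 3
    · -- `S` is trivial
      have hx1 : x = 1 := by
        obtain ⟨k, hk⟩ := IsPGroup.iff_orderOf.mp S.isPGroup' ⟨x, hx⟩
        rw [Subgroup.orderOf_mk] at hk
        have hdvd : orderOf x ∣ Nat.card R := orderOf_dvd_natCard x
        rcases Nat.eq_zero_or_pos k with rfl | hpos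
        · rw [pow_zero] at hk
          exact orderOf_eq_one_iff.mp hk
        · exfalso
          have hpd : p ∣ Nat.card R := by
            rw [hk] at hdvd
            exact (dvd_pow_self p hpos.ne').trans hdvd
          rcases hp23 with rfl | rfl
          · exact h2 hpd
          · exact h3 hpd
      rw [hx1]
      exact one_mem _
    · push Not at hp23
      let aH : (S : Subgroup R) →* (S : Subgroup R) := resHom α S hS
      have hF := hα.res S hS
      let a : MulAut (S : Subgroup R) := MulEquiv.ofBijective aH ⟨hF.inj, hF.surj⟩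
      let ι : (S : Subgroup R) →* Aˣ := R.subtype.comp (S : Subgroup R).subtype
      have hι : Function.Injective ι := fun u v e =>
        Subtype.ext (Subtype.ext e)
      have h1 := pgroup_fix hA s hs S.isPGroup' hp23.1 hp23.2 ι hι a (fun x => rfl)
      have h4 : a ⟨x, hx⟩ = ⟨x, hx⟩ := by rw [h1]; rfl
      have h5 : α x = x := congrArg Subtype.val h4
      exact h5
  intro r hr
  have h1 : (⟨r, hr⟩ : R) ∈ X := by rw [hX]; exact Subgroup.mem_top _
  have h5 : α ⟨r, hr⟩ = ⟨r, hr⟩ := h1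
  exact congrArg Subtype.val h5

end Ring

section Bridge

variable {K V : Type*} [Group K] [CommGroup V] [Finite V]

/-- Automorphisms as units of the endomorphism ring. -/
noncomputable def toU : MulAut V →* (AddMonoid.End (Additive V))ˣ where
  toFun f :=
    { val := MonoidHom.toAdditive f.toMonoidHom
      inv := MonoidHom.toAdditive (f⁻¹).toMonoidHom
      val_inv := by
        ext v
        exact congrArg Additive.ofMul (f.apply_symm_apply (Additive.toMul v))
      inv_val := by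
        ext v
        exact congrArg Additive.ofMul (f.symm_apply_apply (Additive.toMul v)) }
  map_one' := by
    ext v
    rfl
  map_mul' := by
    intro f g
    ext v
    rfl

theorem toU_apply (f : MulAut V) (v : V) :
    ((toU f : (AddMonoid.End (Additive V))ˣ) : AddMonoid.End (Additive V)) (Additive.ofMul v) =
      Additive.ofMul (f v) := rfl

theorem toU_injective : Function.Injective (toU (V := V)) := by
  intro f g h
  ext v
  have h1 := congrArg (fun u : (AddMonoid.End (Additive V))ˣ =>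
    (u : AddMonoid.End (Additive V)) (Additive.ofMul v)) h
  exact Additive.ofMul.injective (by simpa only [toU_apply] using h1)

theorem bridge (hV : ∀ v : V, v * v = 1) (s : V →* V) (hs3 : ∀ v, s (s (s v)) = v)
    (hfix : ∀ v, s v = v → v = 1) (ρ : K →* MulAut V) (φ : K → K)
    (hcompat : ∀ k v, s (ρ k v) = ρ (φ k) (s v))
    (h2 : ¬ 2 ∣ Nat.card ρ.range) (h3 : ¬ 3 ∣ Nat.card ρ.range) (k : K) (v : V) :
    ρ (φ k) v = ρ k v := by
  have hA : ∀ a : AddMonoid.End (Additive V), a + a = 0 := by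
    intro a
    ext v
    show a (Additive.ofMul v) + a (Additive.ofMul v) = 0
    exact hV _
  have hsinj : Function.Injective s := fun x y e => by
    have := congrArg (fun z => s (s z)) e
    simpa only [hs3] using this
  have hssurj : Function.Surjective s := fun x => ⟨s (s x), hs3 x⟩
  let sA : MulAut V := MulEquiv.ofBijective s ⟨hsinj, hssurj⟩
  have hsA : ∀ v, sA v = s v := fun v => rfl
  let s0 := toU sA
  have hs : ((s0 : (AddMonoid.End (Additive V))ˣ) : AddMonoid.End (Additive V)) * s0 + s0 + 1 = 0 := by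
    ext v
    set v0 : V := Additive.toMul v with hv0
    have h1 : s (s (s v0) * s v0 * v0) = s (s v0) * s v0 * v0 := by
      rw [map_mul, map_mul, hs3, mul_assoc, mul_comm]
    exact congrArg Additive.ofMul (hfix _ h1)
  have hconj : ∀ k : K, s0 * toU (ρ k) * s0⁻¹ = toU (ρ (φ k)) := by
    intro k
    have h1 : sA * ρ k * sA⁻¹ = ρ (φ k) := by
      ext v
      obtain ⟨w, rfl⟩ := hssurj v
      have h2 : sA⁻¹ (s w) = w := by
        rw [← hsA]; exact sA.symm_apply_apply w
      simp only [MulAut.mul_apply, h2, hsA]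
      exact hcompat k w
    rw [← h1, map_mul, map_mul, map_inv]
  haveI : Finite (Additive V) := inferInstanceAs (Finite V)
  haveI : Finite (AddMonoid.End (Additive V)) :=
    Finite.of_injective (fun f : AddMonoid.End (Additive V) => (f : Additive V → Additive V))
      DFunLike.coe_injective
  let R : Subgroup (AddMonoid.End (Additive V))ˣ := (ρ.range).map toU
  have hcard : Nat.card R = Nat.card ρ.range :=
    Subgroup.card_map_of_injective toU_injective
  have hres := omega_comm hA s0 hs R (by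
      rintro _ ⟨_, ⟨k, rfl⟩, rfl⟩
      rw [hconj]
      exact ⟨_, ⟨_, rfl⟩, rfl⟩) (by rwa [hcard]) (by rwa [hcard])
    (toU (ρ k)) ⟨_, ⟨k, rfl⟩, rfl⟩
  rw [hconj] at hres
  have := toU_injective hres
  rw [this]

end Bridge

end Cfsg.Agent.Lib.FPS3.Omega
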