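import Cfsg.Agent.Lib.FPS3.Omega
import Cfsg.Agent.Lib.FG7.BurnsideBasis
import Cfsg.Agent.Lib.Core.Constrained

/-!
# The action on sections: `φ` is trivial on `M / Q`
-/

set_option autoImplicit false
set_option linter.unusedSectionVars false
set_option linter.unusedVariables false

namespace Cfsg.Agent.Lib.FPS3.Section

open Subgroup Cfsg Cfsg.Agent.Lib.FPS3.Basic Cfsg.Agent.Lib.FPS3.Omega
  Cfsg.Agent.Lib.Core.Basic

universe u

section CS

variable {H : Type u} [Group H] [Finite H]

/-- A normal subgroup with central Sylow 2-subgroup `P` lies in `P O(H)`. -/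
theorem central_sylow_le (D P : Subgroup H) (hD : D.Normal) (hPD : P ≤ D) (hP2 : IsPGroup 2 P)
    (hPc : ∀ p ∈ P, ∀ d ∈ D, p * d = d * p) (hodd : ¬ 2 ∣ P.relIndex D) :
    D ≤ P ⊔ pPrimeCore 2 H := by
  classical
  have hP' : IsPGroup 2 (P.subgroupOf D) := by
    intro x
    obtain ⟨k, hk⟩ := hP2 ⟨x.1.1, x.2⟩
    refine ⟨k, ?_⟩
    apply Subtype.ext
    apply Subtype.ext
    have := congrArg Subtype.val hk
    simpa using this
  let S : Sylow 2 D := hP'.toSylow hodd
  have hSc : ((S : Subgroup D)) = P.subgroupOf D := rfl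
  have hnorm : normalizer ((S : Subgroup D) : Set D) ≤ centralizer ((S : Subgroup D) : Set D) := by
    intro c _
    rw [mem_centralizer_iff]
    intro s hs
    apply Subtype.ext
    have hs' : (s : H) ∈ P := by
      have : s ∈ P.subgroupOf D := hs
      exact this
    exact hPc _ hs' _ c.2
  have hcomp := MonoidHom.ker_transferSylow_isComplement' S hnorm
  let T := MonoidHom.transferSylow S hnorm
  have hcard : Nat.card T.ker * Nat.card S = Nat.card D := hcomp.card_mul_card
  have hidx : (S : Subgroup D).index * Nat.card S = Nat.card D := Subgroup.index_mul_card _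
  have hSpos : 0 < Nat.card S := Nat.card_pos
  have hk : Nat.card T.ker = (S : Subgroup D).index := by
    apply Nat.eq_of_mul_eq_mul_right hSpos
    rw [hcard, hidx]
  have hkc : (Nat.card T.ker).Coprime 2 := by
    rw [hk]
    exact Nat.Coprime.symm ((Nat.Prime.coprime_iff_not_dvd Nat.prime_two).mpr hodd)
  have h1 : T.ker ≤ pPrimeCore 2 D := le_pPrimeCore inferInstance hkc
  have h2 : (pPrimeCore 2 D).map D.subtype ≤ pPrimeCore 2 H :=
    map_pPrimeCore_le_of_isSubnormal (Subgroup.Normal.isSubnormal hD)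
  intro d hd
  obtain ⟨⟨a, b⟩, hab⟩ := hcomp.2 ⟨d, hd⟩
  have hab' : (a : D) * (b : D) = ⟨d, hd⟩ := hab
  have e : d = ((a : D) : H) * ((b : D) : H) := by
    have := congrArg Subtype.val hab'
    exact this.symm
  rw [e, sup_comm]
  refine Subgroup.mul_mem_sup ?_ ?_
  · exact h2 ⟨a, h1 a.2, rfl⟩
  · exact b.2

/-- In a normal subgroup all of whose elements have a 2-power power central in it, 2-elements lie in
`O₂`. -/
theorem two_elt_mem_core (D : Subgroup H) (hD : D.Normal)
    (hc : ∀ d ∈ D, ∃ k : ℕ, ∀ e ∈ D, d ^ 2 ^ k * e = e * d ^ 2 ^ k) (hO : pCore 2 H = ⊥)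
    {d : H} (hd : d ∈ D) {j : ℕ} (hj : d ^ 2 ^ j = 1) : d = 1 := by
  have hcent : IsPGroup 2 (↥D ⧸ center D) := by
    intro x
    obtain ⟨d', rfl⟩ := QuotientGroup.mk_surjective x
    obtain ⟨k, hk⟩ := hc d' d'.2
    refine ⟨k, ?_⟩
    rw [← QuotientGroup.mk_pow, QuotientGroup.eq_one_iff, Subgroup.mem_center_iff]
    intro g
    apply Subtype.ext
    exact (hk g g.2).symm
  haveI hnilq : Group.IsNilpotent (↥D ⧸ center D) := hcent.isNilpotent
  haveI hnil : Group.IsNilpotent D := Group.of_quotient_center_nilpotent hnilq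
  have h0 : pCore 2 D = ⊥ := by
    have h1 := map_pCore_le_of_isSubnormal (p := 2) (Subgroup.Normal.isSubnormal hD)
    rw [hO, le_bot_iff] at h1
    exact (Subgroup.map_eq_bot_iff_of_injective _ D.subtype_injective).mp h1
  -- the cyclic group generated by `d` lies in a Sylow subgroup
  have hz : IsPGroup 2 (zpowers (⟨d, hd⟩ : D)) := by
    have hx : (⟨d, hd⟩ : D) ^ 2 ^ j = 1 := Subtype.ext hj
    rintro ⟨_, m, rfl⟩
    refine ⟨j, ?_⟩
    apply Subtype.ext
    show ((⟨d, hd⟩ : D) ^ m) ^ 2 ^ j = 1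
    rw [← zpow_natCast _ (2 ^ j), ← zpow_mul, mul_comm, zpow_mul, zpow_natCast, hx, one_zpow]
  obtain ⟨S, hS⟩ := hz.exists_le_sylow
  have hSn : (S : Subgroup D).Normal := inferInstance
  have h1 : (S : Subgroup D) ≤ pCore 2 D := le_pCore hSn S.isPGroup'
  rw [h0, le_bot_iff] at h1
  have h2 : (⟨d, hd⟩ : D) ∈ (S : Subgroup D) := hS (mem_zpowers _)
  rw [h1] at h2
  exact congrArg Subtype.val (Subgroup.mem_bot.mp h2)

end CS

section Descend

variable {W : Type u} [Group W]

/-- Automorphisms descend to the quotient by a characteristic subgroup. -/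
noncomputable def descend (F : Subgroup W) [F.Characteristic] : MulAut W →* MulAut (W ⧸ F) where
  toFun a := QuotientGroup.congr F F a (by
    have := Subgroup.characteristic_iff_map_eq.mp ‹F.Characteristic› a
    exact this)
  map_one' := by
    ext x
    induction x using QuotientGroup.induction_on with
    | H x => rfl
  map_mul' := by
    intro a b
    ext x
    induction x using QuotientGroup.induction_on with
    | H x => rfl

@[simp] theorem descend_mk (F : Subgroup W) [F.Characteristic] (a : MulAut W) (x : W) :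
    descend F a (x : W ⧸ F) = ((a x : W) : W ⧸ F) := rfl

end Descend

section Frat

variable {P : Type u} [Group P] [Finite P]

/-- An automorphism of a `p`-group trivial on the Frattini quotient has `p`-power order. -/
theorem exists_pow_eq_one_of_frattini {p : ℕ} [Fact p.Prime] (hP : IsPGroup p P) (a : MulAut P)
    (h : ∀ x, (a x) * x⁻¹ ∈ frattini P) : ∃ k : ℕ, a ^ p ^ k = 1 := by
  obtain ⟨n, hn⟩ := IsPGroup.iff_card.mp hP
  have hQ : IsPGroup p (P ⧸ frattini P) := hP.to_quotient _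
  obtain ⟨r, hr⟩ := IsPGroup.iff_card.mp hQ
  have hr' : (frattini P).index = p ^ r := by
    rw [Subgroup.index_eq_card]; exact hr
  let A : Subgroup (MulAut P) :=
    { carrier := {α | ∀ x : P, α x * x⁻¹ ∈ frattini P}
      mul_mem' := by
        intro α β hα hβ x
        have h1 := hα (β x)
        have h2 := hβ x
        have e : (α * β) x * x⁻¹ = (α (β x) * (β x)⁻¹) * (β x * x⁻¹) := by
          simp only [MulAut.mul_apply]; group
        rw [e]
        exact (frattini P).mul_mem h1 h2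
      one_mem' := by
        intro x
        simp [one_mem]
      inv_mem' := by
        intro α hα x
        have h1 := hα (α⁻¹ x)
        have e1 : α (α⁻¹ x) = x := by simp
        rw [e1] at h1
        have e2 : α⁻¹ x * x⁻¹ = (x * (α⁻¹ x)⁻¹)⁻¹ := by group
        rw [e2]
        exact (frattini P).inv_mem h1 }
  have hd := Cfsg.Agent.Lib.FG7.BurnsideBasis.card_dvd hn hr' A (fun α hα => hα)
  refine ⟨r * (n - r), ?_⟩
  have h1 : orderOf (⟨a, h⟩ : A) ∣ p ^ (r * (n - r)) := (_root_.orderOf_dvd_natCard _).trans hd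
  have h2 := orderOf_dvd_iff_pow_eq_one.mp h1
  exact congrArg Subtype.val h2

end Frat

section LemmaM

variable {H : Type u} [Group H] [Finite H] {φ : H →* H}

/-- `C_M(Q) ≤ Q` if `O(H) = 1`. -/
theorem centralizer_le (Q M : Subgroup H) [hQn : Q.Normal] [hMn : M.Normal] (hQ2 : IsPGroup 2 Q)
    (hQM : Q ≤ M) (hodd : ¬ 2 ∣ Q.relIndex M) (hO : pPrimeCore 2 H = ⊥) :
    M ⊓ centralizer (Q : Set H) ≤ Q := by
  have h1 := central_sylow_le (M ⊓ centralizer (Q : Set H)) (Q ⊓ centralizer (Q : Set H))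
    inferInstance (inf_le_inf_right _ hQM)
    (hQ2.to_le inf_le_left)
    (by
      intro p hp d hd
      exact (Subgroup.mem_centralizer_iff.mp hd.2 p hp.1))
    (by
      intro hd
      apply hodd
      have e : Q ⊓ centralizer (Q : Set H) = Q ⊓ (M ⊓ centralizer (Q : Set H)) := by
        rw [← inf_assoc, inf_eq_left.mpr hQM]
      rw [e, inf_relIndex_right, ← relIndex_sup_left] at hd
      have hle : Q ⊔ (M ⊓ centralizer (Q : Set H)) ≤ M := sup_le hQM inf_le_left
      rw [← relIndex_mul_relIndex _ _ _ (le_sup_left : Q ≤ Q ⊔ (M ⊓ centralizer (Q : Set H))) hle]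
      exact Dvd.dvd.mul_right hd _)
  rw [hO, sup_bot_eq] at h1
  exact h1.trans inf_le_left

/-- The key lemma on sections. -/
theorem section_trivial (h : F3 φ) (Q M : Subgroup H) [hQn : Q.Normal] [hMn : M.Normal]
    (hQ2 : IsPGroup 2 Q) (hQφ : ∀ x ∈ Q, φ x ∈ Q) (hMφ : ∀ x ∈ M, φ x ∈ M) (hQM : Q ≤ M)
    (hodd : ¬ 2 ∣ Q.relIndex M) (hO : pPrimeCore 2 H = ⊥) (m : H) (hm : m ∈ M) :
    m⁻¹ * φ m ∈ Q := by
  classical
  let Fr : Subgroup Q := frattini Q
  let V := (Q : Type u) ⧸ Fr
  -- elementary abelian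
  have hVexp : ∀ v : V, v * v = 1 := by
    intro v
    obtain ⟨q, rfl⟩ := QuotientGroup.mk_surjective v
    rw [← QuotientGroup.mk_mul, QuotientGroup.eq_one_iff, ← pow_two]
    exact Cfsg.Agent.Lib.PGroups.Basic.pow_mem_frattini hQ2 q
  have hVcomm : ∀ a b : V, a * b = b * a := by
    intro a b
    have h1 := hVexp (a * b)
    have h2 := hVexp a
    have h3 := hVexp b
    calc a * b = a * b * (b * a * (b * a)) := by rw [hVexp, mul_one]
      _ = (a * (b * b)) * a * (b * a) := by group
      _ = (a * a) * (b * a) := by rw [h3, mul_one]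
      _ = b * a := by rw [h2, one_mul]
  letI : CommGroup V := { (inferInstance : Group V) with mul_comm := hVcomm }
  let aφ : Q →* Q := resHom φ Q hQφ
  have hFQ := h.res Q hQφ
  let aE : MulAut Q := MulEquiv.ofBijective aφ ⟨hFQ.inj, hFQ.surj⟩
  have hFr : ∀ x ∈ Fr, aφ x ∈ Fr := by
    intro x hx
    have h1 := Subgroup.characteristic_iff_comap_eq.mp (inferInstance : Fr.Characteristic) aE.symm
    rw [← h1]
    show aE.symm (aE x) ∈ Fr
    simpa using hx
  let s : V →* V := quotHom aφ Fr hFr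
  have hFV := hFQ.quot Fr hFr
  have hs3 : ∀ v, s (s (s v)) = v := hFV.cube
  have hfix : ∀ v, s v = v → v = 1 := by
    intro v hv
    have h1 := hFV.fix v hv
    have h2 : orderOf v ∣ 2 := orderOf_dvd_of_pow_eq_one (by rw [pow_two]; exact hVexp v)
    rcases (Nat.dvd_prime Nat.prime_two).mp h2 with h3 | h3
    · exact orderOf_eq_one_iff.mp h3
    · exact absurd (h3 ▸ dvd_refl _) h1
  let ρ₀ : H →* MulAut V := (descend Fr).comp (MulAut.conjNormal (G := H) (H := Q))
  let ρ : M →* MulAut V := ρ₀.comp M.subtype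
  let φK : M →* M := resHom φ M hMφ
  have hcompat : ∀ k v, s (ρ k v) = ρ (φK k) (s v) := by
    intro k v
    obtain ⟨q, rfl⟩ := QuotientGroup.mk_surjective v
    apply congrArg (QuotientGroup.mk (s := Fr))
    apply Subtype.ext
    show φ ((k : H) * q * (k : H)⁻¹) = φ k * φ q * (φ k)⁻¹
    simp only [map_mul, map_inv]
  have hker : Q.subgroupOf M ≤ ρ.ker := by
    intro q hq
    rw [MonoidHom.mem_ker]
    ext v
    obtain ⟨r, rfl⟩ := QuotientGroup.mk_surjective v
    have hq' : (q : H) ∈ Q := hq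
    show ((MulAut.conjNormal (q : H) r : Q) : V) = (r : V)
    have e : (MulAut.conjNormal (q : H) r : Q) = ⟨q, hq'⟩ * r * (⟨q, hq'⟩ : Q)⁻¹ :=
      Subtype.ext (by simp [MulAut.conjNormal_apply])
    rw [e]
    show ((⟨q, hq'⟩ : Q) : V) * (r : V) * ((⟨q, hq'⟩ : Q) : V)⁻¹ = (r : V)
    rw [hVcomm ((⟨q, hq'⟩ : Q) : V) (r : V), mul_assoc, mul_inv_cancel, mul_one]
  have hR2 : ¬ 2 ∣ Nat.card ρ.range := by
    rw [← Subgroup.index_ker]
    exact fun hd => hodd (hd.trans (Subgroup.index_dvd_of_le hker))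
  have hR3 : ¬ 3 ∣ Nat.card ρ.range := by
    rw [← Subgroup.index_ker]
    intro hd
    apply h.no3
    exact hd.trans ((Subgroup.index_dvd_of_le hker).trans ((Subgroup.index_dvd_card _).trans
      (Subgroup.card_subgroup_dvd_card M)))
  have hbr : ∀ (k : M) (v : V), ρ (φK k) v = ρ k v :=
    fun k v => bridge hVexp s hs3 hfix ρ φK hcompat hR2 hR3 k v
  -- elements acting trivially on `V` lie in `Q`
  have hB : ∀ k : M, ρ k = 1 → (k : H) ∈ Q := by
    intro k hk
    let a : MulAut Q := MulAut.conjNormal (k : H)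
    have h1 : ∀ x : Q, a x * x⁻¹ ∈ frattini Q := by
      intro x
      have h2 : ρ k (x : V) = (x : V) := by rw [hk]; rfl
      have h3 : ((a x : Q) : V) = (x : V) := h2
      have h4 : (a x)⁻¹ * x ∈ Fr := QuotientGroup.eq.mp h3
      have h5 : x⁻¹ * a x ∈ Fr := by
        have := Fr.inv_mem h4
        simpa using this
      have h6 := (inferInstance : Fr.Normal).conj_mem _ h5 x
      have e : x * (x⁻¹ * a x) * x⁻¹ = a x * x⁻¹ := by group
      rw [e] at h6
      exact h6
    obtain ⟨N, hN⟩ := exists_pow_eq_one_of_frattini hQ2 a h1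
    have hcen : (k : H) ^ 2 ^ N ∈ centralizer (Q : Set H) := by
      rw [mem_centralizer_iff]
      intro q hq
      have h2 : (a ^ 2 ^ N) ⟨q, hq⟩ = ⟨q, hq⟩ := by rw [hN]; rfl
      have h3 : a ^ 2 ^ N = MulAut.conjNormal ((k : H) ^ 2 ^ N) := by
        show (MulAut.conjNormal (G := H) (H := Q) (k : H)) ^ 2 ^ N = _
        rw [map_pow]
      rw [h3] at h2
      have h4 := congrArg Subtype.val h2
      simp only [MulAut.conjNormal_apply] at h4
      -- `c q c⁻¹ = q`
      have h5 : (k : H) ^ 2 ^ N * q = q * (k : H) ^ 2 ^ N := by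
        nth_rewrite 2 [← h4]
        group
      exact h5.symm
    have hmem : (k : H) ^ 2 ^ N ∈ M := M.pow_mem k.2 _
    have hQk : (k : H) ^ 2 ^ N ∈ Q := centralizer_le Q M hQ2 hQM hodd hO ⟨hmem, hcen⟩
    -- pass to the odd quotient
    let q : (M : Type u) ⧸ Q.subgroupOf M := (k : (M : Type u) ⧸ Q.subgroupOf M)
    have hq1 : q ^ 2 ^ N = 1 := by
      show ((k : (M : Type u) ⧸ Q.subgroupOf M)) ^ 2 ^ N = 1
      rw [← QuotientGroup.mk_pow, QuotientGroup.eq_one_iff, Subgroup.mem_subgroupOf]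
      simpa using hQk
    have hq2 : orderOf q ∣ Q.relIndex M := _root_.orderOf_dvd_natCard q
    have hq3 : orderOf q ∣ 2 ^ N := orderOf_dvd_of_pow_eq_one hq1
    have hcop : Nat.Coprime (Q.relIndex M) (2 ^ N) :=
      Nat.Coprime.pow_right N (Nat.Coprime.symm ((Nat.Prime.coprime_iff_not_dvd Nat.prime_two).mpr hodd))
    have hq4 : orderOf q = 1 := Nat.eq_one_of_dvd_coprimes hcop hq2 hq3
    have hq5 : q = 1 := orderOf_eq_one_iff.mp hq4
    have hq6 : k ∈ Q.subgroupOf M := (QuotientGroup.eq_one_iff _).mp hq5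
    exact hq6
  let k : M := ⟨m, hm⟩
  have hx : ρ (k⁻¹ * φK k) = 1 := by
    ext v
    rw [map_mul, map_inv]
    show (ρ k)⁻¹ (ρ (φK k) v) = v
    rw [hbr]
    simp
  exact hB _ hx

end LemmaM

end Cfsg.Agent.Lib.FPS3.Section
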