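import Cfsg.Agent.Lib.FPS3.Section
import Cfsg.Agent.Lib.FPS3.ClassTwo
import Cfsg.Agent.Lib.PLocal.AlperinG

/-!
# `O(X)` for a subgroup `X`, and general facts
-/

set_option autoImplicit false
set_option linter.unusedSectionVars false
set_option linter.unusedVariables false

namespace Cfsg.Agent.Lib.FPS3.Sub

open Subgroup Cfsg Cfsg.Agent.Lib.FPS3.Basic Cfsg.Agent.Lib.Core.Basic
open Cfsg.Agent.Lib.PLocal.AlperinG

universe u

variable {G : Type u} [Group G] [Finite G]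

/-- A 2-element of an odd order subgroup is trivial. -/
theorem eq_one_of_two_of_odd {B : Subgroup G} (hB : ¬ 2 ∣ Nat.card B) {x : G} (hx : x ∈ B) {j : ℕ}
    (hj : x ^ 2 ^ j = 1) : x = 1 := by
  have h1 : orderOf x ∣ Nat.card B := Subgroup.orderOf_dvd_natCard B hx
  have h2 : orderOf x ∣ 2 ^ j := orderOf_dvd_of_pow_eq_one hj
  have h3 : Nat.Coprime (Nat.card B) (2 ^ j) :=
    Nat.Coprime.pow_right j (Nat.Coprime.symm ((Nat.Prime.coprime_iff_not_dvd Nat.prime_two).mpr hB))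
  exact orderOf_eq_one_iff.mp (Nat.eq_one_of_dvd_coprimes h3 h1 h2)

/-- A 2-element lies in every normal subgroup of odd index. -/
theorem mem_of_two_elt (K : Subgroup G) [hK : K.Normal] (hI : ¬ 2 ∣ K.index) {x : G} {j : ℕ}
    (hj : x ^ 2 ^ j = 1) : x ∈ K := by
  let q : G ⧸ K := (x : G ⧸ K)
  have h1 : orderOf q ∣ K.index := _root_.orderOf_dvd_natCard q
  have h2 : orderOf q ∣ 2 ^ j := by
    apply orderOf_dvd_of_pow_eq_one
    show ((x : G ⧸ K)) ^ 2 ^ j = 1
    rw [← QuotientGroup.mk_pow, hj]; rfl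
  have h3 : Nat.Coprime K.index (2 ^ j) :=
    Nat.Coprime.pow_right j (Nat.Coprime.symm ((Nat.Prime.coprime_iff_not_dvd Nat.prime_two).mpr hI))
  have h4 : q = 1 := orderOf_eq_one_iff.mp (Nat.eq_one_of_dvd_coprimes h3 h1 h2)
  exact (QuotientGroup.eq_one_iff _).mp h4

/-- In a finite group, mapping `H` into itself by conjugation by `g` means normalizing. -/
theorem mem_normalizer_of_conj (H : Subgroup G) (g : G) (h : ∀ x ∈ H, g * x * g⁻¹ ∈ H) :
    g ∈ normalizer (H : Set G) := by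
  have hp : ∀ n : ℕ, ∀ x ∈ H, g ^ n * x * (g ^ n)⁻¹ ∈ H := by
    intro n
    induction n with
    | zero => intro x hx; simpa using hx
    | succ n ih =>
      intro x hx
      have h1 := h _ (ih x hx)
      have e : g * (g ^ n * x * (g ^ n)⁻¹) * g⁻¹ = g ^ (n + 1) * x * (g ^ (n + 1))⁻¹ := by
        rw [pow_succ']; group
      rwa [e] at h1
  rw [mem_normalizer_iff]
  intro x
  refine ⟨h x, fun hx => ?_⟩
  have h0 : 0 < orderOf g := orderOf_pos g
  have h1 : g ^ (orderOf g - 1) = g⁻¹ := by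
    apply eq_inv_of_mul_eq_one_left
    rw [← pow_succ, Nat.sub_add_cancel h0, pow_orderOf_eq_one]
  have h2 := hp (orderOf g - 1) _ hx
  rw [h1] at h2
  have e : g⁻¹ * (g * x * g⁻¹) * g⁻¹⁻¹ = x := by group
  rwa [e] at h2

/-- `O(X)`, as a subgroup of the ambient group. -/
noncomputable def oddOf (X : Subgroup G) : Subgroup G := (pPrimeCore 2 X).map X.subtype

theorem oddOf_le (X : Subgroup G) : oddOf X ≤ X := by
  rintro _ ⟨x, -, rfl⟩
  exact x.2

theorem oddOf_odd (X : Subgroup G) : ¬ 2 ∣ Nat.card (oddOf X) := by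
  have h1 : Nat.card (oddOf X) = Nat.card (pPrimeCore 2 X) :=
    Subgroup.card_map_of_injective X.subtype_injective
  rw [h1]
  exact (Nat.Prime.coprime_iff_not_dvd Nat.prime_two).mp (pPrimeCore_coprime (p := 2) (G := X)).symm

theorem oddOf_conj (X : Subgroup G) {x b : G} (hx : x ∈ X) (hb : b ∈ oddOf X) :
    x * b * x⁻¹ ∈ oddOf X := by
  obtain ⟨b', hb', rfl⟩ := hb
  exact ⟨⟨x, hx⟩ * b' * (⟨x, hx⟩ : X)⁻¹, (inferInstance : (pPrimeCore 2 X).Normal).conj_mem _ hb' _, rfl⟩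

theorem le_oddOf (X B : Subgroup G) (hBX : B ≤ X) (hB : ¬ 2 ∣ Nat.card B)
    (hn : ∀ x ∈ X, ∀ b ∈ B, x * b * x⁻¹ ∈ B) : B ≤ oddOf X := by
  have h1 : (B.subgroupOf X).Normal := ⟨fun b hb x => hn x x.2 b hb⟩
  have h2 : Nat.card (B.subgroupOf X) = Nat.card B := by
    exact Nat.card_congr (Subgroup.subgroupOfEquivOfLe hBX).toEquiv
  have h3 : (Nat.card (B.subgroupOf X)).Coprime 2 := by
    rw [h2]
    exact ((Nat.Prime.coprime_iff_not_dvd Nat.prime_two).mpr hB).symm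
  have h4 := le_pPrimeCore h1 h3
  intro b hb
  exact ⟨⟨b, hBX hb⟩, h4 hb, rfl⟩

/-- The Frattini argument, given `O_{2',2}` of odd index. -/
theorem exists_mul_of_index {L : Type u} [Group L] [Finite L] (S : Sylow 2 L)
    (hI : ¬ 2 ∣ (pPrimePCore 2 L).index) (g : L) :
    ∃ b ∈ pPrimeCore 2 L, ∃ k ∈ normalizer ((S : Subgroup L) : Set L), g = b * k := by
  have hSK : (S : Subgroup L) ≤ pPrimePCore 2 L := by
    intro x hx
    obtain ⟨j, hj⟩ := S.isPGroup' ⟨x, hx⟩
    exact mem_of_two_elt _ hI (congrArg Subtype.val hj)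
  obtain ⟨c, hc, y, hy, e⟩ := exists_frattini_normal S (pPrimePCore 2 L) g
  rw [inf_eq_left.mpr hSK] at hy
  obtain ⟨u, hu, r, hr, e2⟩ := exists_mul_of_mem_pPrimePCore S hc
  refine ⟨u, hu, r * y, ?_, ?_⟩
  · refine Subgroup.mul_mem _ ?_ hy
    exact Subgroup.le_normalizer hr.1
  · rw [e, e2, mul_assoc]

/-- The Frattini argument inside a subgroup. -/
theorem ih_sub (T : Sylow 2 G) (X : Subgroup G) (hTX : (T : Subgroup G) ≤ X)
    (hI : ¬ 2 ∣ (pPrimePCore 2 X).index) {g : G} (hg : g ∈ X) :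
    ∃ b ∈ oddOf X, ∃ k ∈ normalizer ((T : Subgroup G) : Set G), k ∈ X ∧ g = b * k := by
  let S : Sylow 2 X := T.subtype hTX
  have hS : (S : Subgroup X) = (T : Subgroup G).subgroupOf X := Sylow.coe_subtype T hTX
  obtain ⟨b, hb, k, hk, e⟩ := exists_mul_of_index S hI ⟨g, hg⟩
  refine ⟨b, ⟨b, hb, rfl⟩, k, ?_, k.2, congrArg Subtype.val e⟩
  apply mem_normalizer_of_conj
  intro t ht
  have h1 : (⟨t, hTX ht⟩ : X) ∈ (S : Subgroup X) := by
    rw [hS]; exact ht
  have h2 := (mem_normalizer_iff.mp hk _).mp h1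
  rw [hS] at h2
  exact h2

/-- A central involution in a group with trivial `O₂` is trivial. -/
theorem eq_one_of_central {x : G} (hO : pCore 2 G = ⊥) (hc : ∀ g, g * x = x * g) {j : ℕ}
    (hj : x ^ 2 ^ j = 1) : x = 1 := by
  have hn : (zpowers x).Normal := by
    constructor
    rintro _ ⟨m, rfl⟩ g
    refine ⟨m, ?_⟩
    show x ^ m = g * x ^ m * g⁻¹
    have : g * x ^ m = x ^ m * g := ((Commute.zpow_right (hc g) m))
    rw [this]; group
  have hp : IsPGroup 2 (zpowers x) := by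
    have hx : x ^ 2 ^ j = 1 := hj
    rintro ⟨_, m, rfl⟩
    refine ⟨j, ?_⟩
    apply Subtype.ext
    show (x ^ m) ^ 2 ^ j = 1
    rw [← zpow_natCast _ (2 ^ j), ← zpow_mul, mul_comm, zpow_mul, zpow_natCast, hx, one_zpow]
  have h1 := le_pCore hn hp
  rw [hO, le_bot_iff] at h1
  have h2 : x ∈ zpowers x := mem_zpowers x
  rw [h1] at h2
  exact h2

/-- A normal odd order subgroup is trivial if `O(G)=1`. -/
theorem eq_bot_of_normal_odd (hO : pPrimeCore 2 G = ⊥) {N : Subgroup G} (hN : N.Normal)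
    (hodd : ¬ 2 ∣ Nat.card N) : N = ⊥ := by
  have h1 := le_pPrimeCore (p := 2) hN
    ((Nat.Prime.coprime_iff_not_dvd Nat.prime_two).mpr hodd).symm
  rwa [hO, le_bot_iff] at h1

/-- The Glauberman trick: an involution `u` and `g` with `[u, g]` in an odd normal subgroup. -/
theorem exists_mul_centralizer {N : Subgroup G} (hNn : N.Normal) (hodd : ¬ 2 ∣ Nat.card N) {u g : G}
    (hu : u * u = 1) (hg : u * g * u⁻¹ * g⁻¹ ∈ N) : ∃ n ∈ N, ∃ c, g = n * c ∧ c * u = u * c := by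
  set u' : G := g * u * g⁻¹ with hu'
  have huinv : u⁻¹ = u := inv_eq_of_mul_eq_one_left hu
  have hu'2 : u' * u' = 1 := by
    rw [hu']
    calc g * u * g⁻¹ * (g * u * g⁻¹) = g * (u * u) * g⁻¹ := by group
      _ = 1 := by rw [hu]; group
  have hu'inv : u'⁻¹ = u' := inv_eq_of_mul_eq_one_left hu'2
  set t : G := u * u' with ht
  have htN : t ∈ N := by
    rw [ht, hu', ← mul_assoc, ← mul_assoc]
    have e : u * g * u * g⁻¹ = u * g * u⁻¹ * g⁻¹ := by rw [huinv]
    rw [e]; exact hg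
  -- odd order
  have hord : ¬ 2 ∣ orderOf t := fun hd => hodd (hd.trans (Subgroup.orderOf_dvd_natCard N htN))
  have hc : Nat.Coprime 2 (orderOf t) := (Nat.Prime.coprime_iff_not_dvd Nat.prime_two).mpr hord
  obtain ⟨m, hm⟩ := exists_pow_eq_self_of_coprime hc
  set r : G := t ^ m with hr
  have hrN : r ∈ N := N.pow_mem htN m
  have hr2 : r * r = t := by
    rw [hr, ← pow_two, ← pow_mul, mul_comm, pow_mul]; exact hm
  -- `u` inverts `t`, hence `r`
  have hinv : u * t * u⁻¹ = t⁻¹ := by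
    rw [ht, huinv, mul_inv_rev, hu'inv, huinv]
    calc u * (u * u') * u = (u * u) * u' * u := by group
      _ = u' * u := by rw [hu, one_mul]
  have hinvr : u * r * u⁻¹ = r⁻¹ := by
    rw [hr]
    have e : u * t ^ m * u⁻¹ = (u * t * u⁻¹) ^ m := by
      rw [conj_pow]
    rw [e, hinv, inv_pow]
  -- `r⁻¹ u r = u'`
  have hconj : r⁻¹ * u * r = u' := by
    have h1 : u * r = r⁻¹ * u := by
      calc u * r = (u * r * u⁻¹) * u := by group
        _ = r⁻¹ * u := by rw [hinvr]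
    calc r⁻¹ * u * r = r⁻¹ * (u * r) := by group
      _ = r⁻¹ * (r⁻¹ * u) := by rw [h1]
      _ = (r * r)⁻¹ * u := by group
      _ = t⁻¹ * u := by rw [hr2]
      _ = u' := by
        rw [ht, mul_inv_rev, hu'inv, huinv]
        calc u' * u * u = u' * (u * u) := by group
          _ = u' := by rw [hu, mul_one]
  refine ⟨r⁻¹, N.inv_mem hrN, r * g, by group, ?_⟩
  -- `r g` centralizes `u`
  have h1 : g * u * g⁻¹ = r⁻¹ * u * r := by rw [hconj]
  calc r * g * u = r * (g * u * g⁻¹) * g := by group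
    _ = r * (r⁻¹ * u * r) * g := by rw [h1]
    _ = u * (r * g) := by group

end Cfsg.Agent.Lib.FPS3.Sub
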